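import Cfsg.Agent.Lib.Helper58.G2Syl.Defs

set_option autoImplicit false

namespace Cfsg.Agent.Lib.Helper91.G2Syl

open Cfsg Cfsg.Lie Cfsg.Agent.Lib.Helper58.WrSyl Cfsg.Agent.Lib.Helper58.G2Syl
open scoped MatrixGroups
open Matrix.GeneralLinearGroup (scalar det)

variable {F : Type*} [Field F]

theorem thX_thInv (X Y : Matrix (Fin 2) (Fin 2) F) : thX (thInv X Y) = X := by
  ext i j; fin_cases i <;> fin_cases j <;> simp [thX, thInv]

theorem thY_thInv (X Y : Matrix (Fin 2) (Fin 2) F) : thY (thInv X Y) = Y := by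
  ext i j; fin_cases i <;> fin_cases j <;> simp [thY, thInv]

theorem thInv_th (x : Fin 8 → F) : thInv (thX x) (thY x) = x := by
  ext i; fin_cases i <;> simp [thX, thY, thInv]

theorem thX_add (x y : Fin 8 → F) : thX (x + y) = thX x + thX y := by
  ext i j; fin_cases i <;> fin_cases j <;> simp [thX]

theorem thY_add (x y : Fin 8 → F) : thY (x + y) = thY x + thY y := by
  ext i j; fin_cases i <;> fin_cases j <;> simp [thY] <;> ring

theorem thX_smul (c : F) (x : Fin 8 → F) : thX (c • x) = c • thX x := by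
  ext i j; fin_cases i <;> fin_cases j <;> simp [thX]

theorem thY_smul (c : F) (x : Fin 8 → F) : thY (c • x) = c • thY x := by
  ext i j; fin_cases i <;> fin_cases j <;> simp [thY]

theorem thInv_add (X Y X' Y' : Matrix (Fin 2) (Fin 2) F) :
    thInv (X + X') (Y + Y') = thInv X Y + thInv X' Y' := by
  ext i; fin_cases i <;> simp [thInv] <;> ring

theorem thInv_smul (c : F) (X Y : Matrix (Fin 2) (Fin 2) F) :
    thInv (c • X) (c • Y) = c • thInv X Y := by
  ext i; fin_cases i <;> simp [thInv]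

theorem thX_phiFun (A B : GL (Fin 2) F) (x : Fin 8 → F) :
    thX (phiFun A B x) = (B : Matrix (Fin 2) (Fin 2) F) * thX x *
      ((B⁻¹ : GL (Fin 2) F) : Matrix (Fin 2) (Fin 2) F) := thX_thInv _ _

theorem thY_phiFun (A B : GL (Fin 2) F) (x : Fin 8 → F) :
    thY (phiFun A B x) = (A : Matrix (Fin 2) (Fin 2) F) * thY x *
      ((B⁻¹ : GL (Fin 2) F) : Matrix (Fin 2) (Fin 2) F) := thY_thInv _ _

theorem phiFun_comp (A B A' B' : GL (Fin 2) F) (x : Fin 8 → F) :
    phiFun A B (phiFun A' B' x) = phiFun (A * A') (B * B') x := by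
  unfold phiFun
  rw [thX_thInv, thY_thInv, mul_inv_rev, Units.val_mul, Units.val_mul, Units.val_mul]
  simp only [Matrix.mul_assoc]

theorem phiFun_one (x : Fin 8 → F) : phiFun (1 : GL (Fin 2) F) 1 x = x := by
  unfold phiFun
  rw [inv_one, Units.val_one, Matrix.one_mul, Matrix.one_mul, Matrix.mul_one, Matrix.mul_one,
    thInv_th]

theorem phiFun_add (A B : GL (Fin 2) F) (x y : Fin 8 → F) :
    phiFun A B (x + y) = phiFun A B x + phiFun A B y := by
  unfold phiFun
  rw [thX_add, thY_add, Matrix.mul_add, Matrix.mul_add, Matrix.add_mul, Matrix.add_mul, thInv_add]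

theorem phiFun_smul (A B : GL (Fin 2) F) (c : F) (x : Fin 8 → F) :
    phiFun A B (c • x) = c • phiFun A B x := by
  unfold phiFun
  rw [thX_smul, thY_smul, Matrix.mul_smul, Matrix.mul_smul, Matrix.smul_mul, Matrix.smul_mul,
    thInv_smul]

/-- the linear equivalence with underlying function `phiFun A B` -/
def phiEquiv (A B : GL (Fin 2) F) : L8 F where
  toFun := phiFun A B
  invFun := phiFun A⁻¹ B⁻¹
  map_add' := phiFun_add A B
  map_smul' := phiFun_smul A B
  left_inv x := by
    rw [phiFun_comp, inv_mul_cancel, inv_mul_cancel, phiFun_one]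
  right_inv x := by
    rw [phiFun_comp, mul_inv_cancel, mul_inv_cancel, phiFun_one]

theorem exists_Phi (F : Type*) [Field F] :
    ∃ Φ : GL (Fin 2) F × GL (Fin 2) F →* L8 F, ∀ A B x, Φ (A, B) x = phiFun A B x := by
  refine ⟨MonoidHom.mk' (fun p => phiEquiv p.1 p.2) ?_, fun A B x => rfl⟩
  intro p r
  apply LinearEquiv.ext
  intro x
  exact (phiFun_comp p.1 p.2 r.1 r.2 x).symm

end Cfsg.Agent.Lib.Helper91.G2Syl
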