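import Cfsg.Agent.Lib.Helper58.G2Syl.Defs
import Cfsg.Agent.Lib.Helper91.G2Syl.B2

set_option autoImplicit false

namespace Cfsg.Agent.Lib.Helper91.G2Syl

open Cfsg Cfsg.Lie Cfsg.Agent.Lib.Helper58.WrSyl Cfsg.Agent.Lib.Helper58.G2Syl
open scoped MatrixGroups
open Matrix.GeneralLinearGroup (scalar det)

theorem phiFun_ker {F : Type*} [Field F] (A B : GL (Fin 2) F) (h : ∀ x, phiFun A B x = x) :
    ∃ l : Fˣ, A = scalar (Fin 2) l ∧ B = scalar (Fin 2) l := by
  have hBi : ((B⁻¹ : GL (Fin 2) F) : Matrix (Fin 2) (Fin 2) F) * (B : Matrix (Fin 2) (Fin 2) F) = 1 := by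
    rw [← Units.val_mul, inv_mul_cancel, Units.val_one]
  have hX : ∀ X : Matrix (Fin 2) (Fin 2) F, (B : Matrix (Fin 2) (Fin 2) F) * X = X * B := by
    intro X
    have h1 := congrArg thX (h (thInv X 0))
    rw [thX_phiFun, thX_thInv] at h1
    calc (B : Matrix (Fin 2) (Fin 2) F) * X
        = (B : Matrix (Fin 2) (Fin 2) F) * X * (((B⁻¹ : GL (Fin 2) F) : Matrix (Fin 2) (Fin 2) F) * B) := by
          rw [hBi, Matrix.mul_one]
      _ = ((B : Matrix (Fin 2) (Fin 2) F) * X * ((B⁻¹ : GL (Fin 2) F) : Matrix (Fin 2) (Fin 2) F)) * B := by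
          simp only [Matrix.mul_assoc]
      _ = X * B := by rw [h1]
  have hAB : A = B := by
    have h1 := congrArg thY (h (thInv 0 1))
    rw [thY_phiFun, thY_thInv, Matrix.mul_one] at h1
    apply Units.ext
    calc (A : Matrix (Fin 2) (Fin 2) F)
        = (A : Matrix (Fin 2) (Fin 2) F) * (((B⁻¹ : GL (Fin 2) F) : Matrix (Fin 2) (Fin 2) F) * B) := by
          rw [hBi, Matrix.mul_one]
      _ = ((A : Matrix (Fin 2) (Fin 2) F) * ((B⁻¹ : GL (Fin 2) F) : Matrix (Fin 2) (Fin 2) F)) * B := by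
          simp only [Matrix.mul_assoc]
      _ = B := by rw [h1, Matrix.one_mul]
  have e1 := hX !![1, 0; 0, 0]
  have e2 := hX !![0, 1; 0, 0]
  have h01 : (B : Matrix (Fin 2) (Fin 2) F) 0 1 = 0 := by
    have := congrFun (congrFun e1 0) 1
    simp [Matrix.mul_apply, Fin.sum_univ_two] at this
    exact this.symm
  have h10 : (B : Matrix (Fin 2) (Fin 2) F) 1 0 = 0 := by
    have := congrFun (congrFun e1 1) 0
    simp [Matrix.mul_apply, Fin.sum_univ_two] at this
    exact this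
  have h00 : (B : Matrix (Fin 2) (Fin 2) F) 0 0 = (B : Matrix (Fin 2) (Fin 2) F) 1 1 := by
    have := congrFun (congrFun e2 0) 1
    simp [Matrix.mul_apply, Fin.sum_univ_two] at this
    exact this
  have hl : (B : Matrix (Fin 2) (Fin 2) F) 0 0 ≠ 0 := by
    intro h0
    have hd : (B : Matrix (Fin 2) (Fin 2) F).det = 0 := by
      rw [Matrix.det_fin_two, h0, h01]; ring
    have hu : IsUnit (B : Matrix (Fin 2) (Fin 2) F).det :=
      (Matrix.isUnit_iff_isUnit_det _).mp B.isUnit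
    rw [hd] at hu
    exact not_isUnit_zero hu
  have hB : B = scalar (Fin 2) (Units.mk0 _ hl) := by
    apply Units.ext
    rw [Matrix.GeneralLinearGroup.coe_scalar]
    ext i j
    fin_cases i <;> fin_cases j <;> simp [Matrix.scalar_apply, h01, h10, ← h00]
  exact ⟨Units.mk0 _ hl, hAB.trans hB, hB⟩

end Cfsg.Agent.Lib.Helper91.G2Syl
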