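import Cfsg.Agent.Lib.Helper58.G2Syl.Defs
import Cfsg.Agent.Lib.Helper91.G2Syl.B2

set_option autoImplicit false

namespace Cfsg.Agent.Lib.Helper91.G2Syl

open Cfsg Cfsg.Lie Cfsg.Agent.Lib.Helper58.WrSyl Cfsg.Agent.Lib.Helper58.G2Syl
open scoped MatrixGroups
open Matrix.GeneralLinearGroup (scalar det)

theorem B5_coe_scalar {F : Type*} [Field F] (l : Fˣ) :
    ((scalar (Fin 2) l : GL (Fin 2) F) : Matrix (Fin 2) (Fin 2) F) = (l : F) • 1 := by
  rw [Matrix.GeneralLinearGroup.coe_scalar]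
  ext i j
  simp [Matrix.scalar_apply, Matrix.diagonal_apply, Matrix.one_apply]

theorem phiFun_scalar {F : Type*} [Field F] (l : Fˣ) (x : Fin 8 → F) :
    phiFun (scalar (Fin 2) l) (scalar (Fin 2) l) x = x := by
  unfold phiFun
  rw [← map_inv, B5_coe_scalar, B5_coe_scalar]
  simp only [Matrix.smul_mul, Matrix.mul_smul, Matrix.one_mul, Matrix.mul_one, smul_smul]
  rw [← Units.val_mul, inv_mul_cancel, Units.val_one, one_smul, one_smul, thInv_th]

end Cfsg.Agent.Lib.Helper91.G2Syl
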